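import Groth.Prelude.Def_AffAlg
import Mathlib.AlgebraicGeometry.Morphisms.Affine
import Mathlib.AlgebraicGeometry.Cover.Directed
import Mathlib.AlgebraicGeometry.Restrict

/-!
# Morphisms into a scheme affine over `S` are homomorphisms of `O_S`-algebras
-/

set_option autoImplicit false
universe u
open CategoryTheory CategoryTheory.Limits AlgebraicGeometry Opposite TopologicalSpace

namespace Groth.Agent.Ega2.H278.AlgOf

variable {X Y S : Scheme.{u}} (f : X ⟶ S) (g : Y ⟶ S)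

theorem preimage_le (h : Y ⟶ X) (w : h ≫ f = g) (V : S.Opens) :
    g ⁻¹ᵁ V ≤ h ⁻¹ᵁ (f ⁻¹ᵁ V) := by subst w; exact le_rfl

theorem algHom_app (h : Y ⟶ X) (w : h ≫ f = g) (V : S.Opens) :
    (AffAlg.algHom f g h w).app (op V) =
      h.appLE (f ⁻¹ᵁ V) (g ⁻¹ᵁ V) (preimage_le f g h w V) := by
  subst w
  simp only [AffAlg.algHom]
  exact (h.appLE_eq_app (U := f ⁻¹ᵁ V)).symm

/-- Two homomorphisms of `O_S`-algebras which agree over affine opens are equal. -/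
theorem hom_ext (ω₁ ω₂ : AffAlg.alg f ⟶ AffAlg.alg g)
    (H : ∀ V : S.affineOpens, ω₁.app (op V.1) = ω₂.app (op V.1)) : ω₁ = ω₂ := by
  have hsh : TopCat.Presheaf.IsSheaf (AffAlg.alg g) :=
    ((TopCat.Sheaf.pushforward CommRingCat.{u} g.base).obj Y.sheaf).2
  ext U x
  let G : TopCat.Sheaf CommRingCat.{u} S.carrier :=
    (TopCat.Sheaf.pushforward CommRingCat.{u} g.base).obj Y.sheaf
  refine TopCat.Sheaf.eq_of_locally_eq' G
    (fun (i : {V : S.affineOpens // V.1 ≤ U}) ↦ i.1.1) U (fun i ↦ homOfLE i.2) ?_ _ _ ?_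
  · intro y hy
    obtain ⟨V, hV, hyV, hVU⟩ := (Opens.isBasis_iff_nbhd.mp S.isBasis_affineOpens) hy
    exact Opens.mem_iSup.mpr ⟨⟨⟨V, hV⟩, hVU⟩, hyV⟩
  · intro i
    have h1 := congr($(ω₁.naturality (homOfLE i.2).op) x)
    have h2 := congr($(ω₂.naturality (homOfLE i.2).op) x)
    refine (h1.symm.trans ?_).trans h2
    exact congr($(H i.1) _)

variable [IsAffineHom f]

/-- The morphism on `g⁻¹V` determined by the ring map over the affine open `V`. -/
noncomputable def loc (ω : AffAlg.alg f ⟶ AffAlg.alg g) (V : S.affineOpens) :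
    (g ⁻¹ᵁ V.1).toScheme ⟶ X :=
  (g ⁻¹ᵁ V.1).toSpecΓ ≫ Spec.map (ω.app (op V.1)) ≫ (V.2.preimage f).fromSpec

theorem ι_comp_eq_loc (h : Y ⟶ X) (w : h ≫ f = g) (V : S.affineOpens) :
    (g ⁻¹ᵁ V.1).ι ≫ h = loc f g (AffAlg.algHom f g h w) V := by
  rw [loc, algHom_app, Scheme.Opens.toSpecΓ_SpecMap_appLE_assoc,
    IsAffineOpen.toSpecΓ_fromSpec, Scheme.Hom.resLE_comp_ι]

theorem loc_comp (ω : AffAlg.alg f ⟶ AffAlg.alg g) (hω : f.c ≫ ω = g.c) (V : S.affineOpens) :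
    loc f g ω V ≫ f = (g ⁻¹ᵁ V.1).ι ≫ g := by
  have h1 : f.app V.1 ≫ ω.app (op V.1) = g.app V.1 := congr($(hω).app (op V.1))
  rw [loc, Category.assoc, Category.assoc, ← IsAffineOpen.SpecMap_appLE_fromSpec f V.2
    (V.2.preimage f) le_rfl, Scheme.Hom.appLE_eq_app, ← Spec.map_comp_assoc]
  erw [h1]
  rw [Scheme.Opens.toSpecΓ_naturality_assoc, IsAffineOpen.toSpecΓ_fromSpec, morphismRestrict_ι]

theorem homOfLE_loc (ω : AffAlg.alg f ⟶ AffAlg.alg g) {W V : S.affineOpens} (hWV : W.1 ≤ V.1) :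
    Y.homOfLE (g.preimage_mono hWV) ≫ loc f g ω V = loc f g ω W := by
  have h1 := ω.naturality (homOfLE hWV).op
  rw [loc, loc, ← Scheme.Opens.toSpecΓ_SpecMap_presheaf_map_assoc,
    ← IsAffineOpen.map_fromSpec (V.2.preimage f) (W.2.preimage f)
      (homOfLE (f.preimage_mono hWV)).op, ← Spec.map_comp_assoc, ← Spec.map_comp_assoc]
  congr 3
  exact h1.symm

theorem injective : Function.Injective (AffAlg.algOf f g) := by
  rintro ⟨h₁, w₁⟩ ⟨h₂, w₂⟩ h
  have h' : AffAlg.algHom f g h₁ w₁ = AffAlg.algHom f g h₂ w₂ := congrArg Subtype.val h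
  refine Subtype.ext ?_
  refine Scheme.Cover.hom_ext (Y.openCoverOfIsOpenCover _
    (.comap (iSup_affineOpens_eq_top S) g.base.hom)) _ _ fun V ↦ ?_
  change (g ⁻¹ᵁ V.1).ι ≫ h₁ = (g ⁻¹ᵁ V.1).ι ≫ h₂
  rw [ι_comp_eq_loc f g h₁ w₁, ι_comp_eq_loc f g h₂ w₂, h']

/-- The glued morphism. -/
noncomputable def glue (ω : AffAlg.alg f ⟶ AffAlg.alg g) : Y ⟶ X :=
  Scheme.OpenCover.glueMorphismsOfLocallyDirected
    ((Scheme.directedAffineCover S).pullback₁ g)
    (fun V ↦ (pullbackRestrictIsoRestrict g _).hom ≫ loc f g ω V) fun {V W : S.affineOpens} i ↦ by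
  have hVW : V.1 ≤ W.1 := i.1.1
  have hfst : Scheme.Cover.trans ((Scheme.directedAffineCover S).pullback₁ g) i ≫
      pullback.fst g W.1.ι = pullback.fst g V.1.ι :=
    (pullback.lift_fst _ _ _).trans (Category.comp_id _)
  rw [← homOfLE_loc f g ω hVW]
  refine ((Category.assoc _ _ _).symm.trans ?_).trans (Category.assoc _ _ _)
  refine congr($(?_) ≫ loc f g ω W)
  rw [← cancel_mono (Scheme.Opens.ι _)]
  simp only [Category.assoc, Scheme.homOfLE_ι]
  refine (congr(_ ≫ $(pullbackRestrictIsoRestrict_hom_ι g W.1))).trans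
    (hfst.trans (pullbackRestrictIsoRestrict_hom_ι g V.1).symm)

theorem ι_glue (ω : AffAlg.alg f ⟶ AffAlg.alg g) (V : S.affineOpens) :
    (g ⁻¹ᵁ V.1).ι ≫ glue f g ω = loc f g ω V := by
  rw [← cancel_epi (pullbackRestrictIsoRestrict g V.1).hom, ← Category.assoc]
  trans ((Scheme.directedAffineCover S).pullback₁ g).f V ≫ glue f g ω
  · congr 1; simp only [pullbackRestrictIsoRestrict_hom_ι]; rfl
  delta glue
  generalize_proofs _ _ _ _ H
  exact Scheme.OpenCover.map_glueMorphismsOfLocallyDirected _ _ H _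

theorem glue_comp (ω : AffAlg.alg f ⟶ AffAlg.alg g) (hω : f.c ≫ ω = g.c) :
    glue f g ω ≫ f = g := by
  refine Scheme.Cover.hom_ext (Y.openCoverOfIsOpenCover _
    (.comap (iSup_affineOpens_eq_top S) g.base.hom)) _ _ fun V ↦ ?_
  change (g ⁻¹ᵁ V.1).ι ≫ _ = (g ⁻¹ᵁ V.1).ι ≫ _
  rw [← Category.assoc, ι_glue, loc_comp f g ω hω]

theorem toSpecΓ_specMap_inj {Z : Scheme.{u}} (U : Z.Opens) {R : CommRingCat.{u}}
    (φ₁ φ₂ : R ⟶ Γ(Z, U)) (h : U.toSpecΓ ≫ Spec.map φ₁ = U.toSpecΓ ≫ Spec.map φ₂) : φ₁ = φ₂ := by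
  have h1 := congr(Scheme.Hom.appTop $h)
  rw [Scheme.Hom.comp_appTop, Scheme.Hom.comp_appTop, Scheme.Opens.toSpecΓ_appTop] at h1
  rw [← cancel_epi (Scheme.ΓSpecIso R).hom, ← cancel_mono U.topIso.inv]
  simpa only [Scheme.ΓSpecIso_naturality_assoc, Category.assoc] using h1

theorem surjective : Function.Surjective (AffAlg.algOf f g) := by
  rintro ⟨ω, hω⟩
  refine ⟨⟨glue f g ω, glue_comp f g ω hω⟩, Subtype.ext (hom_ext f g _ _ fun V ↦ ?_)⟩
  change (AffAlg.algHom f g (glue f g ω) (glue_comp f g ω hω)).app _ = _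
  have h1 := (ι_comp_eq_loc f g (glue f g ω) (glue_comp f g ω hω) V).symm.trans (ι_glue f g ω V)
  rw [loc, loc, ← Category.assoc, ← Category.assoc, cancel_mono] at h1
  exact toSpecΓ_specMap_inj _ _ _ h1

theorem bijective : Function.Bijective (AffAlg.algOf f g) := ⟨injective f g, surjective f g⟩

end Groth.Agent.Ega2.H278.AlgOf
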